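import Cfsg.Agent.E8Deg.Tab.T0

/-!
# Checks for the block 0
-/

set_option autoImplicit false
set_option synthInstance.maxSize 2000
set_option synthInstance.maxHeartbeats 200000
set_option maxRecDepth 20000

namespace Cfsg.Agent.E8Deg

open Cfsg.Lie

theorem blockOk0 : BlockOk L0 tg0 M0 := by
  unfold BlockOk
  decide +kernel

theorem celOk0 : ∀ s, StarOk tg0 s (cel0 s) ∧ ∀ p ∈ cel0 s, p.1 ∈ M0 ∧
    ∀ j, ∀ i ∈ (tg0 p.1 j).toList, j.val < i.1.val := by decide +kernel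

theorem lwOk0 : ∀ s, s ∈ core0 → StarOk tg0 s (lw0 s) ∧ (lw0 s).length = 2 ∧ ∀ p ∈ lw0 s, p.1 ∈ M0 ∧
    p.2 ∈ bot0 ∧ ∀ j, j ∉ bot0 → ∀ i ∈ (tg0 p.1 j).toList, i.1 ∉ bot0 ∧ i.1 ≠ Fin.last _ := by decide +kernel

theorem parOk0 : ∀ s, (s = Fin.last _ → EdgeOk tg0 M0 (par0 s).1 (par0 s).2 s) ∧
    (s ≠ Fin.last _ → s < (par0 s).2 ∧ EdgeOk tg0 M0 (par0 s).1 s (par0 s).2) := by decide +kernel

theorem coverOk0 : Fin.last _ ∉ bot0 ∧ (∀ p ∈ cel0 (Fin.last _), p.2 ∉ bot0) ∧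
    (∀ j, j = Fin.last _ ∨ j ∈ bot0 ∨ j ∈ (cel0 (Fin.last _)).map Prod.snd) := by decide +kernel

theorem rowOk0 : ∀ s, s ∈ row0 → StarOk tg0 s (rl0 s) ∧ (∀ j, j ∈ row0 → j = s ∨ j ∈ (rl0 s).map Prod.snd) ∧
    ∀ p ∈ rl0 s, p.1 ∈ M0 ∧ ∀ j, j ∉ row0 → ∀ i ∈ (tg0 p.1 j).toList, i.1 ∉ row0 := by decide +kernel

end Cfsg.Agent.E8Deg
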