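import Cfsg.Agent.E8Deg.Tab.T1

/-!
# Checks for the block 1
-/

set_option autoImplicit false
set_option synthInstance.maxSize 2000
set_option synthInstance.maxHeartbeats 200000
set_option maxRecDepth 20000

namespace Cfsg.Agent.E8Deg

open Cfsg.Lie

theorem blockOk1 : BlockOk L1 tg1 M1 := by
  unfold BlockOk
  decide +kernel

theorem celOk1 : ∀ s, StarOk tg1 s (cel1 s) ∧ ∀ p ∈ cel1 s, p.1 ∈ M1 ∧
    ∀ j, ∀ i ∈ (tg1 p.1 j).toList, j.val < i.1.val := by decide +kernel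

theorem lwOk1 : ∀ s, s ∈ core1 → StarOk tg1 s (lw1 s) ∧ (lw1 s).length = 2 ∧ ∀ p ∈ lw1 s, p.1 ∈ M1 ∧
    p.2 ∈ bot1 ∧ ∀ j, j ∉ bot1 → ∀ i ∈ (tg1 p.1 j).toList, i.1 ∉ bot1 ∧ i.1 ≠ Fin.last _ := by decide +kernel

theorem parOk1 : ∀ s, (s = Fin.last _ → EdgeOk tg1 M1 (par1 s).1 (par1 s).2 s) ∧
    (s ≠ Fin.last _ → s < (par1 s).2 ∧ EdgeOk tg1 M1 (par1 s).1 s (par1 s).2) := by decide +kernel

theorem coverOk1 : Fin.last _ ∉ bot1 ∧ (∀ p ∈ cel1 (Fin.last _), p.2 ∉ bot1) ∧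
    (∀ j, j = Fin.last _ ∨ j ∈ bot1 ∨ j ∈ (cel1 (Fin.last _)).map Prod.snd) := by decide +kernel

theorem rowOk1 : ∀ s, s ∈ row1 → StarOk tg1 s (rl1 s) ∧ (∀ j, j ∈ row1 → j = s ∨ j ∈ (rl1 s).map Prod.snd) ∧
    ∀ p ∈ rl1 s, p.1 ∈ M1 ∧ ∀ j, j ∉ row1 → ∀ i ∈ (tg1 p.1 j).toList, i.1 ∉ row1 := by decide +kernel

end Cfsg.Agent.E8Deg
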