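import Cfsg.Agent.E8Deg.Tab.T2

/-!
# Checks for the block 2
-/

set_option autoImplicit false
set_option synthInstance.maxSize 2000
set_option synthInstance.maxHeartbeats 200000
set_option maxRecDepth 20000

namespace Cfsg.Agent.E8Deg

open Cfsg.Lie

theorem blockOk2 : BlockOk L2 tg2 M2 := by
  unfold BlockOk
  decide +kernel

theorem celOk2 : ∀ s, StarOk tg2 s (cel2 s) ∧ ∀ p ∈ cel2 s, p.1 ∈ M2 ∧
    ∀ j, ∀ i ∈ (tg2 p.1 j).toList, j.val < i.1.val := by decide +kernel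

theorem lwOk2 : ∀ s, s ∈ core2 → StarOk tg2 s (lw2 s) ∧ (lw2 s).length = 2 ∧ ∀ p ∈ lw2 s, p.1 ∈ M2 ∧
    p.2 ∈ bot2 ∧ ∀ j, j ∉ bot2 → ∀ i ∈ (tg2 p.1 j).toList, i.1 ∉ bot2 ∧ i.1 ≠ Fin.last _ := by decide +kernel

theorem parOk2 : ∀ s, (s = Fin.last _ → EdgeOk tg2 M2 (par2 s).1 (par2 s).2 s) ∧
    (s ≠ Fin.last _ → s < (par2 s).2 ∧ EdgeOk tg2 M2 (par2 s).1 s (par2 s).2) := by decide +kernel

theorem coverOk2 : Fin.last _ ∉ bot2 ∧ (∀ p ∈ cel2 (Fin.last _), p.2 ∉ bot2) ∧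
    (∀ j, j = Fin.last _ ∨ j ∈ bot2 ∨ j ∈ (cel2 (Fin.last _)).map Prod.snd) := by decide +kernel

theorem rowOk2 : ∀ s, s ∈ row2 → StarOk tg2 s (rl2 s) ∧ (∀ j, j ∈ row2 → j = s ∨ j ∈ (rl2 s).map Prod.snd) ∧
    ∀ p ∈ rl2 s, p.1 ∈ M2 ∧ ∀ j, j ∉ row2 → ∀ i ∈ (tg2 p.1 j).toList, i.1 ∉ row2 := by decide +kernel

end Cfsg.Agent.E8Deg
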