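import Cfsg.Agent.E8Deg.Tab.T3

/-!
# Checks for the block 3
-/

set_option autoImplicit false
set_option synthInstance.maxSize 2000
set_option synthInstance.maxHeartbeats 200000
set_option maxRecDepth 20000

namespace Cfsg.Agent.E8Deg

open Cfsg.Lie

theorem blockOk3 : BlockOk L3 tg3 M3 := by
  unfold BlockOk
  decide +kernel

theorem celOk3 : ∀ s, StarOk tg3 s (cel3 s) ∧ ∀ p ∈ cel3 s, p.1 ∈ M3 ∧
    ∀ j, ∀ i ∈ (tg3 p.1 j).toList, j.val < i.1.val := by decide +kernel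

theorem lwOk3 : ∀ s, s ∈ core3 → StarOk tg3 s (lw3 s) ∧ (lw3 s).length = 2 ∧ ∀ p ∈ lw3 s, p.1 ∈ M3 ∧
    p.2 ∈ bot3 ∧ ∀ j, j ∉ bot3 → ∀ i ∈ (tg3 p.1 j).toList, i.1 ∉ bot3 ∧ i.1 ≠ Fin.last _ := by decide +kernel

theorem parOk3 : ∀ s, (s = Fin.last _ → EdgeOk tg3 M3 (par3 s).1 (par3 s).2 s) ∧
    (s ≠ Fin.last _ → s < (par3 s).2 ∧ EdgeOk tg3 M3 (par3 s).1 s (par3 s).2) := by decide +kernel

theorem coverOk3 : Fin.last _ ∉ bot3 ∧ (∀ p ∈ cel3 (Fin.last _), p.2 ∉ bot3) ∧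
    (∀ j, j = Fin.last _ ∨ j ∈ bot3 ∨ j ∈ (cel3 (Fin.last _)).map Prod.snd) := by decide +kernel

end Cfsg.Agent.E8Deg
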