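import Cfsg.Agent.E8Deg.Defs2

/-!
# Generated tables for E₈: the block 3
-/

set_option autoImplicit false
set_option synthInstance.maxSize 2000
set_option synthInstance.maxHeartbeats 200000
set_option maxRecDepth 20000

namespace Cfsg.Agent.E8Deg

open Cfsg.Lie

/-- The roots. -/
def L3 : Fin 10 → ℕ := fun j => ([141, 142, 143, 144, 147, 148, 149, 152, 153, 156] : List ℕ).getD j.val 0

/-- The movers. -/
def M3 : List ℕ := [101, 103, 104, 109, 113, 116, 123, 126, 127, 130, 131, 132, 135, 136, 137, 138]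

/-- The targets of the movers. -/
def tb3 : List (ℕ × List (ℕ × ℕ × ℤ)) :=
  [(101, [(6, 0, 1), (8, 1, 1), (9, 2, 1)]),
   (103, [(4, 0, 1), (7, 2, -1), (8, 3, -1)]),
   (104, [(4, 1, -1), (5, 2, -1), (6, 3, -1)]),
   (109, [(1, 0, -1), (7, 5, -1), (8, 6, -1)]),
   (113, [(2, 1, -1), (5, 4, -1), (9, 8, -1)]),
   (116, [(3, 2, -1), (6, 5, -1), (8, 7, -1)]),
   (123, [(2, 3, -1), (5, 6, -1), (7, 8, -1)]),
   (126, [(1, 2, -1), (4, 5, -1), (8, 9, -1)]),
   (127, [(1, 3, -1), (4, 6, -1), (7, 9, 1)]),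
   (130, [(0, 1, -1), (5, 7, -1), (6, 8, -1)]),
   (131, [(0, 2, -1), (4, 7, 1), (6, 9, -1)]),
   (132, [(0, 3, -1), (4, 8, 1), (5, 9, 1)]),
   (135, [(1, 4, -1), (2, 5, -1), (3, 6, -1)]),
   (136, [(0, 4, 1), (2, 7, -1), (3, 8, -1)]),
   (137, [(0, 5, 1), (1, 7, 1), (3, 9, -1)]),
   (138, [(0, 6, 1), (1, 8, 1), (2, 9, 1)])]

/-- The target map. -/
def tg3 : ℕ → Fin 10 → Option (Fin 10 × ℤ) := look tb3

/-- The coordinates not reached from the highest one. -/
def bot3 : List (Fin 10) := [0, 1, 4]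

/-- The low coordinates used as pivots. -/
def core3 : List (Fin 10) := [0, 1, 4]

/-- The moves reaching a pivot. -/
def cel3 (s : Fin 10) : List (ℕ × Fin 10) :=
  ([[],
    [(130, 0)],
    [(126, 1), (131, 0)],
    [(123, 2), (127, 1), (132, 0)],
    [(135, 1), (136, 0)],
    [(126, 4), (135, 2), (137, 0)],
    [(123, 5), (127, 4), (135, 3), (138, 0)],
    [(130, 5), (131, 4), (136, 2), (137, 1)],
    [(123, 7), (130, 6), (132, 4), (136, 3), (138, 1)],
    [(126, 8), (127, 7), (131, 6), (132, 5), (137, 3), (138, 2)]] : List (List (ℕ × Fin 10))).getD s.val []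

/-- Two moves among the low coordinates. -/
def lw3 (s : Fin 10) : List (ℕ × Fin 10) :=
  ([[(103, 4), (109, 1)],
    [(104, 4), (130, 0)],
    [],
    [],
    [(135, 1), (136, 0)],
    [],
    [],
    [],
    [],
    []] : List (List (ℕ × Fin 10))).getD s.val []

/-- The neighbour of a coordinate. -/
def par3 (s : Fin 10) : ℕ × Fin 10 :=
  ([(130, 1), (135, 4), (135, 5), (135, 6), (126, 5), (130, 7), (130, 8), (123, 8), (126, 9), (138, 2)] : List (ℕ × Fin 10)).getD s.val (0, s)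


end Cfsg.Agent.E8Deg
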