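import Cfsg.Agent.E8Deg.Defs2

/-!
# Half of the radical of the parabolic subgroup of type E₇ and the partners
-/

set_option autoImplicit false

namespace Cfsg.Agent.E8Deg

open Cfsg.Lie

/-- The roots of the upper half. -/
def hA : Fin 28 → ℕ := fun j => ([202, 203, 209, 211, 212, 213, 215, 216, 217, 218, 220, 221, 222, 223, 224, 225, 227, 228, 229, 230, 231, 232, 233, 234, 235, 236, 237, 238] : List ℕ).getD j.val 0

/-- Their partners. -/
def hP : Fin 28 → ℕ := fun j => ([208, 206, 201, 199, 198, 196, 193, 192, 190, 187, 183, 182, 180, 177, 173, 168, 161, 160, 158, 155, 151, 146, 140, 134, 129, 125, 122, 120] : List ℕ).getD j.val 0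

end Cfsg.Agent.E8Deg
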